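import Mathlib
import Cfsg.Agent.Base
import Cfsg.Agent.Lib.FFOp.Norm

/-!
# A faithful model with operators
-/

set_option autoImplicit false

namespace H79.FFO

open Subgroup Cfsg H23
open scoped commutatorElement Pointwise

universe u

variable {G : Type u} [Group G] {p q : ℕ}

theorem omegaZClosure_characteristic : (H24.omegaZClosure G p).Characteristic := by
  rw [characteristic_iff_map_le]
  intro φ
  rw [H24.omegaZClosure_def, Subgroup.map_iSup]
  refine iSup_le fun S => ?_
  rw [H24.map_omegaOne φ.injective, H24.map_inf_centralizer φ.injective]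
  exact le_iSup (fun S : Sylow p G => omegaOne p ((S : Subgroup G) ⊓
    centralizer ((S : Subgroup G) : Set G))) (φ • S)

/-- The data of a faithful model of `K` on `V`, with the operator group `X`. -/
structure Model (p q : ℕ) (K X : Subgroup G) (V : Subgroup K) [hV : V.Normal] (Γ : Type u) [Group Γ]
    (g : K →* Γ) (i : V →* Γ) (X' : Subgroup Γ) : Prop where
  inj : Function.Injective i
  ker : g.ker = centralizer (V : Set K)
  conj : ∀ (x : K) (v : V), g x * i v * (g x)⁻¹ = i ⟨x * v * x⁻¹, hV.conj_mem _ v.2 x⟩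
  ff : FFSetup p i.range g.range ((pPrimeCore p g.range).map g.range.subtype)
  pow : ∀ x ∈ X', x ^ q = 1
  normV : X' ≤ normalizer (i.range : Set Γ)
  normH : X' ≤ normalizer (g.range : Set Γ)
  liftH : g.range ⊓ centralizer (X' : Set Γ) ≤ ((centralizer (X : Set G)).subgroupOf K).map g
  liftV : ∀ v : V, i v ∈ centralizer (X' : Set Γ) → ((v : K) : G) ∈ centralizer (X : Set G)

theorem exists_model [Finite G] [Fact p.Prime] [Fact q.Prime] {K X : Subgroup G}
    (hXK : X ≤ normalizer (K : Set G)) (hX : IsElementaryAbelian q X) (hq : ¬ q ∣ Nat.card K)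
    (hsep : IsPSolvable p K) (V : Subgroup K) [V.Characteristic] (hV : IsElementaryAbelian p V)
    (hO : pCore p (K ⧸ centralizer (V : Set K)) = ⊥) :
    ∃ (Γ : Type u) (_ : Group Γ) (_ : Finite Γ) (g : K →* Γ) (i : V →* Γ) (X' : Subgroup Γ),
      Model p q K X V Γ g i X' := by
  set N := normalizer (K : Set G) with hN
  have hKN : K ≤ N := le_normalizer
  set V' := (V.map K.subtype).subgroupOf N with hV'
  haveI : V'.Normal := (normal_subgroupOf_iff_le_normalizer ((map_subtype_le V).trans hKN)).2
    (H2.le_normalizer_map_subtype_of_characteristic le_rfl V)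
  obtain ⟨Γ, _, _, g0, i0, hi, hk, hn, hf, hc⟩ := exists_faithful_model V'
  let j : V →* V' := ((inclusion hKN).comp V.subtype).codRestrict V' fun v => ⟨v, v.2, rfl⟩
  have hj : Function.Surjective j := by
    rintro ⟨x, v, hv, e⟩
    exact ⟨⟨v, hv⟩, Subtype.ext (Subtype.ext e)⟩
  have hj' : Function.Injective j := fun a b h =>
    Subtype.ext (Subtype.ext (congrArg (fun x : V' => ((x : N) : G)) h))
  have hr : (i0.comp j).range = i0.range := by
    rw [MonoidHom.range_comp, MonoidHom.range_eq_top_of_surjective j hj, ← MonoidHom.range_eq_map]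
  have hg : (g0.comp (inclusion hKN)).range = (K.subgroupOf N).map g0 := by
    rw [MonoidHom.range_comp, inclusion_range]
  have hker : (g0.comp (inclusion hKN)).ker = centralizer (V : Set K) := by
    ext x
    rw [MonoidHom.mem_ker, MonoidHom.comp_apply, ← MonoidHom.mem_ker, hk, mem_centralizer_iff,
      mem_centralizer_iff]
    constructor
    · intro h v hv
      exact inclusion_injective hKN (h (inclusion hKN v) ⟨v, hv, rfl⟩)
    · rintro h ⟨y, hy⟩ ⟨v, hv, e⟩
      refine Subtype.ext ?_
      have := congrArg Subtype.val (h v hv)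
      change (v : G) = y at e
      change y * x = x * y
      rw [← e]; exact this
  have hO' : pCore p (g0.comp (inclusion hKN)).range = ⊥ := by
    let e : K ⧸ centralizer (V : Set K) ≃* (g0.comp (inclusion hKN)).range :=
      (QuotientGroup.quotientMulEquivOfEq hker.symm).trans (QuotientGroup.quotientKerEquivRange _)
    rw [← H1.map_pCore_equiv e, hO, Subgroup.map_bot]
  have hVe : IsElementaryAbelian p (i0.comp j).range := by
    rw [MonoidHom.range_eq_map]
    exact H24.EA.map (H24.EA.top_iff.2 hV) _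
  have hXs : Group.IsSolvable (X.subgroupOf N) :=
    H2.isSolvable_of_isMulCommutative (H24.EA.subgroupOf hX N).1
  have hcop : (Nat.card (X.subgroupOf N)).Coprime (Nat.card (K.subgroupOf N)) := by
    rw [H24.card_subgroupOf_of_le hKN]
    obtain ⟨k, hk⟩ := H24.EA.exists_card (H24.EA.subgroupOf hX N)
    rw [hk]
    exact Nat.Coprime.pow_left _ ((Nat.Prime.coprime_iff_not_dvd Fact.out).2 hq)
  refine ⟨Γ, inferInstance, inferInstance, g0.comp (inclusion hKN), i0.comp j, (X.subgroupOf N).map g0,
    hi.comp hj', hker, fun x v => hc _ _, ?_, ?_, ?_, ?_, ?_, ?_⟩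
  · refine ffSetup_pPrimeCore hVe ?_ ?_
      (centralizer_pPrimeCore_le_of_isPSolvable hsep (MonoidHom.rangeRestrict_surjective _) hO')
    · rw [hr]; exact le_normalizer_of_normal
    · rw [hr, eq_bot_iff, ← hf, hg]
      exact inf_le_inf_right _ (map_le_range _ _)
  · rintro _ ⟨x, hx, rfl⟩
    rw [← map_pow, show x ^ q = 1 from Subtype.ext (hX.2 _ hx), map_one]
  · rw [hr]; exact le_normalizer_of_normal
  · rw [hg]
    exact (map_mono le_normalizer_of_normal).trans (le_normalizer_map g0)
  · rw [hg, ← H2.map_inf_centralizer_of_coprime le_normalizer_of_normal hcop (Or.inl hXs)]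
    rintro _ ⟨x, ⟨hxK, hxc⟩, rfl⟩
    refine ⟨⟨x, hxK⟩, ?_, rfl⟩
    intro y hy
    exact congrArg Subtype.val (hxc ⟨y, hXK hy⟩ hy)
  · intro v hv
    have : i0 (j v) ∈ i0.range ⊓ centralizer (((X.subgroupOf N).map g0 : Subgroup Γ) : Set Γ) :=
      ⟨⟨_, rfl⟩, hv⟩
    rw [model_inf_centralizer hi hc] at this
    obtain ⟨w, hw, e⟩ := this
    rw [hi e] at hw
    intro y hy
    exact congrArg Subtype.val (hw ⟨y, hXK hy⟩ hy)

namespace Model

variable {K X : Subgroup G} {V : Subgroup K} [hV : V.Normal] {Γ : Type u} [Group Γ]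
  {g : K →* Γ} {i : V →* Γ} {X' : Subgroup Γ}

theorem normY (m : Model p q K X V Γ g i X') :
    X' ≤ normalizer (((pPrimeCore p g.range).map g.range.subtype : Subgroup Γ) : Set Γ) :=
  H2.le_normalizer_map_subtype_of_characteristic m.normH _

theorem not_dvd [Finite G] (g : K →* Γ) (hq : ¬ q ∣ Nat.card K) : ¬ q ∣ Nat.card g.range :=
  fun h => hq (h.trans (card_dvd_of_surjective _ g.rangeRestrict_surjective))

end Model

end H79.FFO
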